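import Mathlib

set_option autoImplicit false

namespace Cfsg.Agent.H12A6

/-- the fixed double transposition `(0 1)(2 3)` -/
def s0 : Equiv.Perm (Fin 6) := Equiv.swap 0 1 * Equiv.swap 2 3

set_option maxRecDepth 100000 in
theorem d1 : (Finset.univ.filter (fun σ : Equiv.Perm (Fin 6) =>
    σ * s0 = s0 * σ ∧ Equiv.Perm.sign σ = 1)).card ≤ 8 := by
  decide +kernel

set_option maxRecDepth 100000 in
theorem d2 : (Finset.univ.filter (fun σ : Equiv.Perm (Fin 6) =>
    σ * σ = 1 ∧ σ ≠ 1 ∧ Equiv.Perm.sign σ = 1)).card ≤ 45 := by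
  decide +kernel

set_option maxRecDepth 100000 in
theorem d3 : ∀ b3 b4 b5 : Bool, (Finset.univ.filter (fun σ : Equiv.Perm (Fin 6) =>
    σ * σ = 1 ∧ Equiv.Perm.sign σ = 1 ∧
      decide ((s0 * σ) ^ 3 = 1) = b3 ∧
      decide ((s0 * σ) ^ 4 = 1) = b4 ∧
      decide ((s0 * σ) ^ 5 = 1) = b5)).card ≤ 17 := by
  decide +kernel

theorem s0_sign : Equiv.Perm.sign s0 = 1 := by decide

theorem s0_sq : s0 * s0 = 1 := by decide

theorem s0_ne : s0 ≠ 1 := by decide

/-- commuting with `s0`, even -/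
abbrev T1 := {σ : Equiv.Perm (Fin 6) // σ * s0 = s0 * σ ∧ Equiv.Perm.sign σ = 1}

theorem card_T1 : Nat.card T1 ≤ 8 := by
  rw [Nat.card_eq_fintype_card, Fintype.card_subtype]; exact d1

/-- even involutions -/
abbrev T2 := {σ : Equiv.Perm (Fin 6) // σ * σ = 1 ∧ σ ≠ 1 ∧ Equiv.Perm.sign σ = 1}

theorem card_T2 : Nat.card T2 ≤ 45 := by
  rw [Nat.card_eq_fintype_card, Fintype.card_subtype]; exact d2

/-- even elements of square one with a given profile relative to `s0` -/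
abbrev T3 (b3 b4 b5 : Bool) := {σ : Equiv.Perm (Fin 6) // σ * σ = 1 ∧ Equiv.Perm.sign σ = 1 ∧
      decide ((s0 * σ) ^ 3 = 1) = b3 ∧
      decide ((s0 * σ) ^ 4 = 1) = b4 ∧
      decide ((s0 * σ) ^ 5 = 1) = b5}

theorem card_T3 (b3 b4 b5 : Bool) : Nat.card (T3 b3 b4 b5) ≤ 17 := by
  rw [Nat.card_eq_fintype_card, Fintype.card_subtype]; exact d3 b3 b4 b5

theorem arith32 (k m : ℕ) (h : 2 ^ k * m = 1440) (hm : ¬ 2 ∣ m) : 2 ^ k = 32 := by
  have hk : k < 11 := by
    by_contra hk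
    push Not at hk
    have h11 : 2 ^ 11 ≤ 2 ^ k := Nat.pow_le_pow_right (by norm_num) hk
    have hm0 : 0 < m := by
      rcases Nat.eq_zero_or_pos m with h0 | h0
      · subst h0; simp at h
      · exact h0
    nlinarith
  interval_cases k <;> omega

theorem meet_aux {G : Type*} [Group G] (z t y c : G) (ht : t = y * z * y⁻¹)
    (hct : c * t = t * c) : z * (y⁻¹ * c * y) = y⁻¹ * c * y * z := by
  have hz : z = y⁻¹ * t * y := by rw [ht]; group
  calc z * (y⁻¹ * c * y) = y⁻¹ * (t * c) * y := by rw [hz]; group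
    _ = y⁻¹ * (c * t) * y := by rw [hct]
    _ = y⁻¹ * c * y * z := by rw [hz]; group

end Cfsg.Agent.H12A6
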