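import Mathlib
import Cfsg.Agent.Helper12.A6a

set_option autoImplicit false
open scoped Pointwise

namespace Cfsg.Agent.H12A6

section
variable {G : Type*} [Group G] [Finite G] (N : Subgroup G) [hNn : N.Normal]
  (e : N ≃* alternatingGroup (Fin 6))

/-- the element of `N` corresponding to `s0` -/
noncomputable def zN : N := e.symm ⟨s0, Equiv.Perm.mem_alternatingGroup.mpr s0_sign⟩

omit [Finite G] hNn in
theorem e_zN : ((e (zN N e) : alternatingGroup (Fin 6)) : Equiv.Perm (Fin 6)) = s0 := by
  unfold zN; rw [e.apply_symm_apply]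

omit [Finite G] hNn in
theorem sign_e (n : N) :
    Equiv.Perm.sign ((e n : alternatingGroup (Fin 6)) : Equiv.Perm (Fin 6)) = 1 :=
  Equiv.Perm.mem_alternatingGroup.mp (e n).2

omit [Finite G] hNn in
theorem e_inj {n m : N}
    (h : ((e n : alternatingGroup (Fin 6)) : Equiv.Perm (Fin 6)) =
      (e m : alternatingGroup (Fin 6))) : n = m :=
  e.injective (Subtype.ext h)

omit [Finite G] hNn in
theorem e_pow_iff (w : N) (k : ℕ) :
    ((e w : alternatingGroup (Fin 6)) : Equiv.Perm (Fin 6)) ^ k = 1 ↔ (w : G) ^ k = 1 := by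
  constructor
  · intro h
    have h1 : w ^ k = 1 := by
      apply e_inj N e
      rw [map_pow, map_one]
      simpa using h
    have := congrArg (fun z : N => (z : G)) h1
    simpa using this
  · intro h
    have h1 : w ^ k = 1 := Subtype.ext (by simpa using h)
    have := congrArg (fun z : N => ((e z : alternatingGroup (Fin 6)) : Equiv.Perm (Fin 6))) h1
    simpa using this

omit [Finite G] hNn in
theorem e_invol (n : N) (h1 : (n : G) * (n : G) = 1) :
    ((e n : alternatingGroup (Fin 6)) : Equiv.Perm (Fin 6)) *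
      (e n : alternatingGroup (Fin 6)) = 1 := by
  have hn : n * n = 1 := Subtype.ext h1
  have := congrArg (fun z : N => ((e z : alternatingGroup (Fin 6)) : Equiv.Perm (Fin 6))) hn
  simpa using this

omit [Finite G] hNn in
theorem e_ne_one (n : N) (h1 : (n : G) ≠ 1) :
    ((e n : alternatingGroup (Fin 6)) : Equiv.Perm (Fin 6)) ≠ 1 := by
  intro h
  apply h1
  have : n = 1 := e_inj N e (by rw [h, map_one]; rfl)
  rw [this]; rfl

omit [Finite G] hNn in
theorem zN_sq : ((zN N e : N) : G) * ((zN N e : N) : G) = 1 := by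
  have h : zN N e * zN N e = 1 := by
    apply e_inj N e
    rw [map_mul, map_one, Subgroup.coe_mul, e_zN]
    exact s0_sq
  exact congrArg (fun w : N => (w : G)) h

omit [Finite G] hNn in
theorem zN_ne : ((zN N e : N) : G) ≠ 1 := by
  intro h
  have h1 : zN N e = 1 := Subtype.ext h
  have h2 := e_zN N e
  rw [h1, map_one] at h2
  exact s0_ne h2.symm

omit [Finite G] hNn in
include e in
theorem card_N : Nat.card N = 360 := by
  rw [Nat.card_congr e.toEquiv, nat_card_alternatingGroup, Nat.card_fin]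
  decide

omit hNn in
include e in
theorem card_G (hidx : N.index = 4) : Nat.card G = 1440 := by
  have := N.card_mul_index
  rw [card_N N e, hidx] at this
  omega

omit hNn in
include e in
theorem card_sylow (hidx : N.index = 4) (Q : Sylow 2 G) : Nat.card Q = 32 := by
  haveI : Fact (Nat.Prime 2) := ⟨Nat.prime_two⟩
  obtain ⟨k, hk⟩ := IsPGroup.iff_card.mp Q.2
  have h1 := (Q : Subgroup G).card_mul_index
  rw [card_G N e hidx] at h1
  have h2 : ¬ 2 ∣ (Q : Subgroup G).index := Q.not_dvd_index
  rw [hk] at h1 ⊢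
  exact arith32 k _ h1 h2

theorem card_cent_le (hidx : N.index = 4) :
    Nat.card (Subgroup.centralizer {((zN N e : N) : G)}) ≤ 32 := by
  have h1 := (N.subgroupOf (Subgroup.centralizer {((zN N e : N) : G)})).card_mul_index
  have h2 : (N.subgroupOf (Subgroup.centralizer {((zN N e : N) : G)})).index ≤ 4 := by
    have := Subgroup.relIndex_dvd_index_of_normal (H := N)
      (K := Subgroup.centralizer {((zN N e : N) : G)})
    rw [hidx] at this
    exact Nat.le_of_dvd (by norm_num) this
  have h3 : Nat.card (N.subgroupOf (Subgroup.centralizer {((zN N e : N) : G)})) ≤ 8 := by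
    have key : ∀ c : N.subgroupOf (Subgroup.centralizer {((zN N e : N) : G)}),
        ((e ⟨(c : Subgroup.centralizer {((zN N e : N) : G)}),
            Subgroup.mem_subgroupOf.mp c.2⟩ : alternatingGroup (Fin 6)) :
              Equiv.Perm (Fin 6)) * s0 =
          s0 * (e ⟨(c : Subgroup.centralizer {((zN N e : N) : G)}),
            Subgroup.mem_subgroupOf.mp c.2⟩ : alternatingGroup (Fin 6)) := by
      intro c
      have hc := (c : Subgroup.centralizer {((zN N e : N) : G)}).2
      rw [Subgroup.mem_centralizer_iff] at hc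
      have hc' := hc _ (Set.mem_singleton _)
      have hN : (⟨(c : Subgroup.centralizer {((zN N e : N) : G)}),
          Subgroup.mem_subgroupOf.mp c.2⟩ : N) * zN N e =
          zN N e * ⟨(c : Subgroup.centralizer {((zN N e : N) : G)}),
            Subgroup.mem_subgroupOf.mp c.2⟩ := Subtype.ext hc'.symm
      have := congrArg
        (fun z : N => ((e z : alternatingGroup (Fin 6)) : Equiv.Perm (Fin 6))) hN
      simp only [map_mul, Subgroup.coe_mul] at this
      rw [e_zN] at this
      exact this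
    let f : N.subgroupOf (Subgroup.centralizer {((zN N e : N) : G)}) → T1 := fun c =>
      ⟨(e ⟨(c : Subgroup.centralizer {((zN N e : N) : G)}),
        Subgroup.mem_subgroupOf.mp c.2⟩ : alternatingGroup (Fin 6)), key c, sign_e N e _⟩
    have hf : Function.Injective f := by
      intro c1 c2 h
      have h' := congrArg (fun t : T1 => (t : Equiv.Perm (Fin 6))) h
      have h'' := e_inj N e h'
      have h3 : ((c1 : Subgroup.centralizer {((zN N e : N) : G)}) : G) =
          ((c2 : Subgroup.centralizer {((zN N e : N) : G)}) : G) :=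
        congrArg (fun z : N => (z : G)) h''
      exact Subtype.ext (Subtype.ext h3)
    exact (Nat.card_le_card_of_injective f hf).trans card_T1
  have h4 : Nat.card (N.subgroupOf (Subgroup.centralizer {((zN N e : N) : G)})) *
      (N.subgroupOf (Subgroup.centralizer {((zN N e : N) : G)})).index ≤ 8 * 4 :=
    Nat.mul_le_mul h3 h2
  omega

theorem card_cent_ge (hidx : N.index = 4) :
    32 ≤ Nat.card (Subgroup.centralizer {((zN N e : N) : G)}) := by
  haveI : Finite (ConjAct G) := ‹Finite G›
  have h1 := (MulAction.stabilizer (ConjAct G) ((zN N e : N) : G)).card_mul_index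
  rw [← Subgroup.nat_card_centralizer_nat_card_stabilizer, MulAction.index_stabilizer] at h1
  have hG : Nat.card (ConjAct G) = 1440 := card_G N e hidx
  rw [hG] at h1
  have h2 : (MulAction.orbit (ConjAct G) ((zN N e : N) : G)).ncard ≤ 45 := by
    rw [← Nat.card_coe_set_eq]
    have hmem : ∀ y : MulAction.orbit (ConjAct G) ((zN N e : N) : G), (y : G) ∈ N := by
      rintro ⟨y, g, rfl⟩
      show g • ((zN N e : N) : G) ∈ N
      rw [ConjAct.smul_def]
      exact hNn.conj_mem _ (zN N e).2 _
    have hsq : ∀ y : MulAction.orbit (ConjAct G) ((zN N e : N) : G),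
        (y : G) * (y : G) = 1 := by
      rintro ⟨y, g, rfl⟩
      show g • ((zN N e : N) : G) * g • ((zN N e : N) : G) = 1
      rw [ConjAct.smul_def]
      have hzz := zN_sq N e
      calc ConjAct.ofConjAct g * ((zN N e : N) : G) * (ConjAct.ofConjAct g)⁻¹ *
            (ConjAct.ofConjAct g * ((zN N e : N) : G) * (ConjAct.ofConjAct g)⁻¹)
          = ConjAct.ofConjAct g * (((zN N e : N) : G) * ((zN N e : N) : G)) *
            (ConjAct.ofConjAct g)⁻¹ := by group
        _ = 1 := by rw [hzz]; group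
    have hne : ∀ y : MulAction.orbit (ConjAct G) ((zN N e : N) : G), (y : G) ≠ 1 := by
      rintro ⟨y, g, rfl⟩ h
      have h' : g • ((zN N e : N) : G) = 1 := h
      rw [ConjAct.smul_def] at h'
      apply zN_ne N e
      have := congrArg (fun v => (ConjAct.ofConjAct g)⁻¹ * v * ConjAct.ofConjAct g) h'
      simpa [mul_assoc] using this
    let f : MulAction.orbit (ConjAct G) ((zN N e : N) : G) → T2 := fun y =>
      ⟨(e ⟨y, hmem y⟩ : alternatingGroup (Fin 6)), e_invol N e _ (hsq y),
        e_ne_one N e _ (hne y), sign_e N e _⟩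
    have hf : Function.Injective f := by
      intro c1 c2 h
      have h' := congrArg (fun t : T2 => (t : Equiv.Perm (Fin 6))) h
      have h'' := e_inj N e h'
      exact Subtype.ext (congrArg (fun z : N => (z : G)) h'')
    exact (Nat.card_le_card_of_injective f hf).trans card_T2
  have h3 : Nat.card (Subgroup.centralizer {((zN N e : N) : G)}) *
      (MulAction.orbit (ConjAct G) ((zN N e : N) : G)).ncard ≤
      Nat.card (Subgroup.centralizer {((zN N e : N) : G)}) * 45 := Nat.mul_le_mul_left _ h2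
  omega

omit [Finite G] hNn in
theorem conj_aux (z h t : G) (hc : z * h = h * z) :
    z * (h * t * h⁻¹) = h * (z * t) * h⁻¹ := by
  calc z * (h * t * h⁻¹) = (z * h) * t * h⁻¹ := by group
    _ = h * (z * t) * h⁻¹ := by rw [hc]; group

theorem meet (hidx : N.index = 4) (y : G) :
    ∃ c : G, c ≠ 1 ∧ c ∈ Subgroup.centralizer {((zN N e : N) : G)} ∧
      y⁻¹ * c * y ∈ Subgroup.centralizer {((zN N e : N) : G)} := by
  classical
  obtain ⟨z, hz⟩ : ∃ z : G, z = ((zN N e : N) : G) := ⟨_, rfl⟩
  have hcard : Nat.card (Subgroup.centralizer {((zN N e : N) : G)}) = 32 :=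
    le_antisymm (card_cent_le N e hidx) (card_cent_ge N e hidx)
  have hzz : z * z = 1 := by rw [hz]; exact zN_sq N e
  have hzN : z ∈ N := by rw [hz]; exact (zN N e).2
  obtain ⟨t, ht⟩ : ∃ t : G, t = y * z * y⁻¹ := ⟨_, rfl⟩
  have htt : t * t = 1 := by
    rw [ht]
    calc y * z * y⁻¹ * (y * z * y⁻¹) = y * (z * z) * y⁻¹ := by group
      _ = 1 := by rw [hzz]; group
  have htN : t ∈ N := by rw [ht]; exact hNn.conj_mem _ hzN _
  have hu : ∀ h : Subgroup.centralizer {((zN N e : N) : G)},
      (h : G) * t * (h : G)⁻¹ ∈ N := fun h => hNn.conj_mem _ htN _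
  have hcomm : ∀ h : Subgroup.centralizer {((zN N e : N) : G)},
      z * (h : G) = (h : G) * z := fun h => by
    rw [hz]
    exact (Subgroup.mem_centralizer_iff.mp h.2) _ (Set.mem_singleton _)
  have hprof : ∀ (h : Subgroup.centralizer {((zN N e : N) : G)}) (k : ℕ),
      (s0 * ((e ⟨_, hu h⟩ : alternatingGroup (Fin 6)) : Equiv.Perm (Fin 6))) ^ k = 1 ↔
        (z * t) ^ k = 1 := by
    intro h k
    have h1 : s0 * ((e ⟨_, hu h⟩ : alternatingGroup (Fin 6)) : Equiv.Perm (Fin 6)) =
        ((e (zN N e * ⟨_, hu h⟩) : alternatingGroup (Fin 6)) : Equiv.Perm (Fin 6)) := by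
      rw [map_mul, Subgroup.coe_mul, e_zN]
    rw [h1, e_pow_iff]
    have h2 : (((zN N e * ⟨_, hu h⟩ : N)) : G) = (h : G) * (z * t) * (h : G)⁻¹ := by
      show ((zN N e : N) : G) * ((h : G) * t * (h : G)⁻¹) = _
      have hcz := hcomm h
      rw [hz] at hcz ⊢
      exact conj_aux _ _ _ hcz
    rw [h2, conj_pow]
    constructor
    · intro h3
      have := congrArg (fun v => (h : G)⁻¹ * v * (h : G)) h3
      simpa [mul_assoc] using this
    · intro h3; rw [h3]; group
  let ψ : Subgroup.centralizer {((zN N e : N) : G)} →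
      T3 (decide ((z * t) ^ 3 = 1)) (decide ((z * t) ^ 4 = 1)) (decide ((z * t) ^ 5 = 1)) :=
    fun h => ⟨(e ⟨_, hu h⟩ : alternatingGroup (Fin 6)),
      e_invol N e _ (by
        show (h : G) * t * (h : G)⁻¹ * ((h : G) * t * (h : G)⁻¹) = 1
        calc (h : G) * t * (h : G)⁻¹ * ((h : G) * t * (h : G)⁻¹)
            = (h : G) * (t * t) * (h : G)⁻¹ := by group
          _ = 1 := by rw [htt]; group),
      sign_e N e _,
      decide_eq_decide.mpr (hprof h 3), decide_eq_decide.mpr (hprof h 4),
      decide_eq_decide.mpr (hprof h 5)⟩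
  have hni : ¬ Function.Injective ψ := fun hinj => by
    have h1 := Nat.card_le_card_of_injective ψ hinj
    have h2 := card_T3 (decide ((z * t) ^ 3 = 1)) (decide ((z * t) ^ 4 = 1))
      (decide ((z * t) ^ 5 = 1))
    omega
  rw [Function.Injective] at hni
  push Not at hni
  obtain ⟨h1, h2, heq, hne⟩ := hni
  have heq' := congrArg (fun t : T3 (decide ((z * t) ^ 3 = 1)) (decide ((z * t) ^ 4 = 1))
    (decide ((z * t) ^ 5 = 1)) => (t : Equiv.Perm (Fin 6))) heq
  have heq2 : (h1 : G) * t * (h1 : G)⁻¹ = (h2 : G) * t * (h2 : G)⁻¹ :=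
    congrArg (fun w : N => (w : G)) (e_inj N e heq')
  have hct : ((h2 : G)⁻¹ * (h1 : G)) * t = t * ((h2 : G)⁻¹ * (h1 : G)) := by
    calc ((h2 : G)⁻¹ * (h1 : G)) * t = (h2 : G)⁻¹ * ((h1 : G) * t * (h1 : G)⁻¹) * (h1 : G) := by
          group
      _ = (h2 : G)⁻¹ * ((h2 : G) * t * (h2 : G)⁻¹) * (h1 : G) := by rw [heq2]
      _ = t * ((h2 : G)⁻¹ * (h1 : G)) := by group
  refine ⟨(h2 : G)⁻¹ * (h1 : G), ?_,
    Subgroup.mul_mem _ (Subgroup.inv_mem _ h2.2) h1.2, ?_⟩
  · intro h
    apply hne
    apply Subtype.ext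
    have := congrArg (fun v => (h2 : G) * v) h
    simpa using this
  · rw [Subgroup.mem_centralizer_iff]
    intro w hw
    rw [Set.mem_singleton_iff] at hw
    rw [hw]
    have hfin := meet_aux z t y _ ht hct
    rw [hz] at hfin
    exact hfin

include e in
theorem main (hidx : N.index = 4) (H : Sylow 2 G) (x : G) :
    (H : Subgroup G) ⊓ MulAut.conj x • (H : Subgroup G) ≠ ⊥ := by
  have : Fact (Nat.Prime 2) := ⟨Nat.prime_two⟩
  have hcard : Nat.card (Subgroup.centralizer {((zN N e : N) : G)}) = 32 :=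
    le_antisymm (card_cent_le N e hidx) (card_cent_ge N e hidx)
  have hp : IsPGroup 2 (Subgroup.centralizer {((zN N e : N) : G)}) :=
    IsPGroup.of_card (n := 5) (by rw [hcard]; norm_num)
  obtain ⟨P, hP⟩ := hp.exists_le_sylow
  have hCP : Subgroup.centralizer {((zN N e : N) : G)} = (P : Subgroup G) :=
    Subgroup.eq_of_le_of_card_ge hP (by rw [hcard, card_sylow N e hidx P])
  obtain ⟨g, hg⟩ := MulAction.exists_smul_eq G P H
  have hH : (H : Subgroup G) =
      MulAut.conj g • Subgroup.centralizer {((zN N e : N) : G)} := by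
    rw [← hg, Sylow.coe_subgroup_smul, hCP]
  have hmem : ∀ v : G, v ∈ (H : Subgroup G) ↔
      g⁻¹ * v * g ∈ Subgroup.centralizer {((zN N e : N) : G)} := by
    intro v
    rw [hH, Subgroup.mem_pointwise_smul_iff_inv_smul_mem]
    have h1 : (MulAut.conj g)⁻¹ • v = g⁻¹ * v * g := by
      rw [← map_inv, MulAut.smul_def, MulAut.conj_apply, inv_inv]
    rw [h1]
  obtain ⟨c, hc1, hc2, hc3⟩ := meet N e hidx (g⁻¹ * x * g)
  intro hbot
  have hin : g * c * g⁻¹ ∈ (H : Subgroup G) ⊓ MulAut.conj x • (H : Subgroup G) := by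
    refine Subgroup.mem_inf.mpr ⟨?_, ?_⟩
    · rw [hmem]
      have h2 : g⁻¹ * (g * c * g⁻¹) * g = c := by group
      rw [h2]; exact hc2
    · rw [Subgroup.mem_pointwise_smul_iff_inv_smul_mem]
      have h1 : (MulAut.conj x)⁻¹ • (g * c * g⁻¹) = x⁻¹ * (g * c * g⁻¹) * x := by
        rw [← map_inv, MulAut.smul_def, MulAut.conj_apply, inv_inv]
      rw [h1, hmem]
      have h2 : g⁻¹ * (x⁻¹ * (g * c * g⁻¹) * x) * g = (g⁻¹ * x * g)⁻¹ * c * (g⁻¹ * x * g) := by
        group
      rw [h2]; exact hc3
  rw [hbot, Subgroup.mem_bot] at hin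
  apply hc1
  have := congrArg (fun v => g⁻¹ * v * g) hin
  simpa [mul_assoc] using this

end

end Cfsg.Agent.H12A6
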