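import Mathlib
import Cfsg.Agent.Helper8.GLB1

set_option autoImplicit false
open scoped Pointwise

namespace Cfsg.Agent.H12GL

open Matrix Cfsg.Agent.Helper8

variable {n : ℕ}

theorem zmod2_eq_one {x : ZMod 2} (hx : x ≠ 0) : x = 1 := by
  revert x; decide

/-- diagonal entries of an upper triangular invertible matrix over `F_2` are `1` -/
theorem diag_one (u : GL (Fin n) (ZMod 2)) (hu : u ∈ Cfsg.upperTriangularGL n (ZMod 2))
    (i : Fin n) : (u : Matrix (Fin n) (Fin n) (ZMod 2)) i i = 1 := by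
  apply zmod2_eq_one
  intro h0
  have hdet := gl_det_ne_zero u
  have hM : (u : Matrix (Fin n) (Fin n) (ZMod 2)).IsUpperTriangular := hu
  rw [Matrix.det_of_isUpperTriangular hM] at hdet
  exact hdet (Finset.prod_eq_zero (Finset.mem_univ i) h0)

theorem upper_pow [NeZero n] (u : GL (Fin n) (ZMod 2))
    (hu : u ∈ Cfsg.upperTriangularGL n (ZMod 2)) : u ^ (2 ^ n) = 1 := by
  haveI : Nonempty (Fin n) := ⟨0⟩
  have hM : (u : Matrix (Fin n) (Fin n) (ZMod 2)).IsUpperTriangular := hu
  have h1 : ((u : Matrix (Fin n) (Fin n) (ZMod 2)) - 1) ^ n = 0 := by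
    have hc := Matrix.aeval_self_charpoly (u : Matrix (Fin n) (Fin n) (ZMod 2))
    rw [Matrix.charpoly_of_isUpperTriangular _ hM] at hc
    have hprod : (∏ i : Fin n, (Polynomial.X -
        Polynomial.C ((u : Matrix (Fin n) (Fin n) (ZMod 2)) i i))) =
        (Polynomial.X - Polynomial.C (1 : ZMod 2)) ^ n := by
      rw [Finset.prod_congr rfl (fun i _ => by rw [diag_one u hu i])]
      rw [Finset.prod_const, Finset.card_univ, Fintype.card_fin]
    rw [hprod] at hc
    simpa using hc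
  haveI : Fact (Nat.Prime 2) := ⟨Nat.prime_two⟩
  have h2 : ((u : Matrix (Fin n) (Fin n) (ZMod 2)) - 1) ^ 2 ^ n =
      (u : Matrix (Fin n) (Fin n) (ZMod 2)) ^ 2 ^ n - 1 := by
    have := sub_pow_char_pow_of_commute (p := 2) (n := n)
      (Commute.one_right (u : Matrix (Fin n) (Fin n) (ZMod 2)))
    rw [one_pow] at this
    exact this
  have h3 : ((u : Matrix (Fin n) (Fin n) (ZMod 2)) - 1) ^ 2 ^ n = 0 := by
    have hle : n ≤ 2 ^ n := Nat.le_of_lt n.lt_two_pow_self
    rw [← Nat.sub_add_cancel hle, pow_add, h1, mul_zero]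
  apply Units.ext
  rw [Units.val_pow_eq_pow_val, Units.val_one]
  exact sub_eq_zero.mp (h2.symm.trans h3)

theorem upper_pgroup [NeZero n] : IsPGroup 2 (Cfsg.upperTriangularGL n (ZMod 2)) := by
  intro g
  refine ⟨n, ?_⟩
  apply Subtype.ext
  rw [SubmonoidClass.coe_pow, Subgroup.coe_one]
  exact upper_pow g.1 g.2

theorem pmat_conj_tv (σ : Equiv.Perm (Fin n)) (a b : Fin n) (hab : a ≠ b) :
    permGL (ZMod 2) n σ * tvGL a b hab 1 * (permGL (ZMod 2) n σ)⁻¹ =
      tvGL (σ a) (σ b) (σ.injective.ne hab) 1 := by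
  rw [mul_inv_eq_iff_eq_mul]
  apply Units.ext
  rw [Units.val_mul, Units.val_mul, permGL_val, tvGL_val, tvGL_val]
  ext i j
  simp only [Matrix.transvection, Matrix.mul_add, Matrix.add_mul, Matrix.mul_one, Matrix.one_mul,
    Matrix.add_apply]
  congr 1
  rw [Matrix.mul_apply, Matrix.mul_apply]
  rw [Finset.sum_eq_single a, Finset.sum_eq_single (σ b)]
  · simp only [pmat_apply, Matrix.single_apply]
    by_cases h1 : i = σ a <;> by_cases h2 : b = j <;> simp [h1, h2, eq_comm]
  · intro k _ hk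
    rw [Matrix.single_apply, if_neg (fun h => hk h.2.symm), zero_mul]
  · intro h; exact absurd (Finset.mem_univ _) h
  · intro k _ hk
    rw [Matrix.single_apply, if_neg (fun h => hk h.1.symm), mul_zero]
  · intro h; exact absurd (Finset.mem_univ _) h

theorem tv_ne_one (a b : Fin n) (hab : a ≠ b) : tvGL a b hab (1 : ZMod 2) ≠ 1 := by
  intro h
  have h1 := congrArg (fun g : GL (Fin n) (ZMod 2) => (g : Matrix (Fin n) (Fin n) (ZMod 2)) a b) h
  simp only [tvGL_val, Units.val_one, Matrix.transvection, Matrix.add_apply,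
    Matrix.one_apply_ne hab, Matrix.single_apply_same, zero_add] at h1
  exact one_ne_zero h1

theorem tv_not_upper (a b : Fin n) (hab : b < a) :
    tvGL a b hab.ne' (1 : ZMod 2) ∉ Cfsg.upperTriangularGL n (ZMod 2) := by
  intro h
  have h1 : ((tvGL a b hab.ne' (1 : ZMod 2) : GL (Fin n) (ZMod 2)) :
      Matrix (Fin n) (Fin n) (ZMod 2)) a b = 0 := h hab
  simp only [tvGL_val, Matrix.transvection, Matrix.add_apply,
    Matrix.one_apply_ne hab.ne', Matrix.single_apply_same, zero_add] at h1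
  exact one_ne_zero h1

theorem perm_eq_one_of_strictMono (σ : Equiv.Perm (Fin n)) (h : StrictMono σ) : σ = 1 := by
  ext i
  exact congrArg Fin.val (le_antisymm h.apply_le h.le_apply)

/-- the upper triangular group over `F_2` is self-normalising (one-sided form) -/
theorem upper_self_norm (g : GL (Fin n) (ZMod 2))
    (hg : ∀ u ∈ Cfsg.upperTriangularGL n (ZMod 2),
      g * u * g⁻¹ ∈ Cfsg.upperTriangularGL n (ZMod 2)) :
    g ∈ Cfsg.upperTriangularGL n (ZMod 2) := by
  obtain ⟨u, hu, u', hu', σ, rfl⟩ := bruhat_gl g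
  have hw : ∀ v ∈ Cfsg.upperTriangularGL n (ZMod 2),
      permGL (ZMod 2) n σ * v * (permGL (ZMod 2) n σ)⁻¹ ∈ Cfsg.upperTriangularGL n (ZMod 2) := by
    intro v hv
    have h1 := hg (u'⁻¹ * v * u') (mul_mem (mul_mem (inv_mem hu') hv) hu')
    have h2 : permGL (ZMod 2) n σ * v * (permGL (ZMod 2) n σ)⁻¹ =
        u⁻¹ * ((u * permGL (ZMod 2) n σ * u') * (u'⁻¹ * v * u') *
          (u * permGL (ZMod 2) n σ * u')⁻¹) * u := by group
    rw [h2]; exact mul_mem (mul_mem (inv_mem hu) h1) hu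
  have hσ : StrictMono σ := by
    intro a b hab
    by_contra hlt
    have hne : σ a ≠ σ b := σ.injective.ne hab.ne
    have hgt : σ b < σ a := lt_of_le_of_ne (not_lt.mp hlt) hne.symm
    have h1 := hw (tvGL a b hab.ne 1) (transvection_upper a b hab 1)
    rw [pmat_conj_tv] at h1
    exact tv_not_upper _ _ hgt h1
  rw [perm_eq_one_of_strictMono σ hσ, map_one, mul_one]
  exact mul_mem hu hu'

/-- elements whose conjugate of the upper triangular group meets it trivially lie in the
big cell -/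
theorem upper_opp (x : GL (Fin n) (ZMod 2))
    (hx : ∀ v ∈ Cfsg.upperTriangularGL n (ZMod 2),
      x⁻¹ * v * x ∈ Cfsg.upperTriangularGL n (ZMod 2) → v = 1) :
    ∃ u ∈ Cfsg.upperTriangularGL n (ZMod 2), ∃ u' ∈ Cfsg.upperTriangularGL n (ZMod 2),
      x = u * permGL (ZMod 2) n Fin.revPerm * u' := by
  obtain ⟨u, hu, u', hu', σ, rfl⟩ := bruhat_gl x
  have hσ : ∀ a b : Fin n, a < b → σ b < σ a := by
    intro a b hab
    by_contra hlt
    have hne : σ a ≠ σ b := σ.injective.ne hab.ne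
    have hgt : σ a < σ b := lt_of_le_of_ne (not_lt.mp hlt) hne
    have h1 := hx (u * tvGL (σ a) (σ b) hne 1 * u⁻¹)
      (mul_mem (mul_mem hu (transvection_upper _ _ hgt 1)) (inv_mem hu)) (by
        have h2 : (u * permGL (ZMod 2) n σ * u')⁻¹ * (u * tvGL (σ a) (σ b) hne 1 * u⁻¹) *
            (u * permGL (ZMod 2) n σ * u') =
            u'⁻¹ * ((permGL (ZMod 2) n σ)⁻¹ * (permGL (ZMod 2) n σ * tvGL a b hab.ne 1 *
              (permGL (ZMod 2) n σ)⁻¹) * permGL (ZMod 2) n σ) * u' := by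
          rw [pmat_conj_tv]; group
        rw [h2]
        have h3 : (permGL (ZMod 2) n σ)⁻¹ * (permGL (ZMod 2) n σ * tvGL a b hab.ne 1 *
              (permGL (ZMod 2) n σ)⁻¹) * permGL (ZMod 2) n σ = tvGL a b hab.ne 1 := by group
        rw [h3]
        exact mul_mem (mul_mem (inv_mem hu') (transvection_upper a b hab 1)) hu')
    apply tv_ne_one (σ a) (σ b) hne
    have h4 := congrArg (fun v => u⁻¹ * v * u) h1
    simpa [mul_assoc] using h4
  have hmono : StrictMono (fun i : Fin n => σ (Fin.rev i)) := by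
    intro i j hij
    exact hσ _ _ (Fin.rev_lt_rev.mpr hij)
  have hrev : σ = Fin.revPerm := by
    ext i
    have h1 : σ (Fin.rev (Fin.rev i)) = Fin.rev i :=
      le_antisymm hmono.apply_le hmono.le_apply
    rw [Fin.rev_rev] at h1
    rw [h1]; rfl
  exact ⟨u, hu, u', hu', by rw [hrev]⟩

end Cfsg.Agent.H12GL
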