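import Mathlib
import Cfsg.Agent.Helper12.GLa

set_option autoImplicit false
open scoped Pointwise

namespace Cfsg.Agent.H12GL

open Matrix Cfsg.Agent.Helper8

section abs
variable {G : Type*} [Group G] [Finite G]

/-- abstract form: `U` a self-normalising 2-subgroup of the index-2 normal subgroup `N` whose
"opposite" conjugates all lie in one double coset `U w U`; then a Sylow 2-subgroup `H ≥ U`
of `G` meets each of its conjugates. -/
theorem abs_meet (N : Subgroup G) [hNn : N.Normal] (hidx : N.index = 2)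
    (U : Subgroup G) (hUN : U ≤ N)
    (hP2 : ∀ g ∈ N, (∀ u ∈ U, g * u * g⁻¹ ∈ U) → g ∈ U)
    (w : G)
    (hP3 : ∀ x ∈ N, (∀ v ∈ U, x⁻¹ * v * x ∈ U → v = 1) → ∃ u ∈ U, ∃ u' ∈ U, x = u * w * u')
    (H : Sylow 2 G) (hUH : U ≤ (H : Subgroup G)) (y : G) :
    ∃ c : G, c ≠ 1 ∧ c ∈ (H : Subgroup G) ∧ y⁻¹ * c * y ∈ (H : Subgroup G) := by
  classical
  have : Fact (Nat.Prime 2) := ⟨Nat.prime_two⟩
  -- Step 1: H ⊓ N ≤ U
  have hHN : ∀ k ∈ (H : Subgroup G), k ∈ N → k ∈ U := by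
    by_contra hcon
    push Not at hcon
    obtain ⟨k0, hk0H, hk0N, hk0U⟩ := hcon
    have hQ : IsPGroup 2 ((H : Subgroup G) ⊓ N : Subgroup G) := H.2.to_le inf_le_left
    haveI : Group.IsNilpotent ((H : Subgroup G) ⊓ N : Subgroup G) := hQ.isNilpotent
    have hV : U.subgroupOf ((H : Subgroup G) ⊓ N) < ⊤ := by
      rw [lt_top_iff_ne_top]
      intro htop
      have h1 : (⟨k0, hk0H, hk0N⟩ : ((H : Subgroup G) ⊓ N : Subgroup G)) ∈
          U.subgroupOf ((H : Subgroup G) ⊓ N) := by rw [htop]; trivial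
      exact hk0U (Subgroup.mem_subgroupOf.mp h1)
    have hlt := Group.normalizerCondition_of_isNilpotent (U.subgroupOf ((H : Subgroup G) ⊓ N)) hV
    obtain ⟨q, hqn, hqU⟩ := SetLike.exists_of_lt hlt
    apply hqU
    rw [Subgroup.mem_subgroupOf]
    apply hP2 (q : G) q.2.2
    intro u hu
    have huQ : u ∈ ((H : Subgroup G) ⊓ N : Subgroup G) := ⟨hUH hu, hUN hu⟩
    have h2 := (Subgroup.mem_normalizer_iff.mp hqn ⟨u, huQ⟩).mp (Subgroup.mem_subgroupOf.mpr hu)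
    exact Subgroup.mem_subgroupOf.mp h2
  -- H normalizes U
  have hHU : ∀ k ∈ (H : Subgroup G), ∀ u ∈ U, k * u * k⁻¹ ∈ U := fun k hk u hu =>
    hHN _ (mul_mem (mul_mem hk (hUH hu)) (inv_mem hk)) (hNn.conj_mem u (hUN hu) k)
  -- Step 2: h0 ∈ H ∖ N
  obtain ⟨h0, hh0H, hh0N⟩ : ∃ h0 ∈ (H : Subgroup G), h0 ∉ N := by
    by_contra hcon
    push Not at hcon
    have hle : (H : Subgroup G) ≤ N := hcon
    have h1 := Subgroup.index_dvd_of_le hle
    rw [hidx] at h1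
    exact H.not_dvd_index h1
  -- every y (case B) is u * w * s
  have key : ∀ y : G, (∀ v ∈ U, y⁻¹ * v * y ∈ U → v = 1) →
      ∃ u ∈ U, ∃ s ∈ (H : Subgroup G), y = u * w * s := by
    intro y hy
    by_cases hyN : y ∈ N
    · obtain ⟨u, hu, u', hu', h⟩ := hP3 y hyN hy
      exact ⟨u, hu, u', hUH hu', h⟩
    · have hn : y * h0⁻¹ ∈ N := by
        rw [Subgroup.mul_mem_iff_of_index_two hidx]
        constructor
        · intro h; exact absurd h hyN
        · intro h; exact absurd (N.inv_mem_iff.mp h) hh0N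
      obtain ⟨u, hu, u', hu', h⟩ := hP3 (y * h0⁻¹) hn (by
        intro v hv hv'
        apply hy v hv
        have h2 := hHU h0⁻¹ (inv_mem hh0H) _ hv'
        have h3 : h0⁻¹ * ((y * h0⁻¹)⁻¹ * v * (y * h0⁻¹)) * h0⁻¹⁻¹ = y⁻¹ * v * y := by group
        rw [h3] at h2; exact h2)
      refine ⟨u, hu, u' * h0, mul_mem (hUH hu') hh0H, ?_⟩
      calc y = (y * h0⁻¹) * h0 := by group
        _ = u * w * (u' * h0) := by rw [h]; group
  by_cases hA : ∃ v ∈ U, v ≠ 1 ∧ y⁻¹ * v * y ∈ U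
  · obtain ⟨v, hv, hv1, hv2⟩ := hA
    exact ⟨v, hv1, hUH hv, hUH hv2⟩
  · push Not at hA
    have hB : ∀ v ∈ U, y⁻¹ * v * y ∈ U → v = 1 := by
      intro v hv hv'
      by_contra hne
      exact hA v hv hne hv'
    have hBk : ∀ k ∈ (H : Subgroup G), ∀ v ∈ U, (k * y)⁻¹ * v * (k * y) ∈ U → v = 1 := by
      intro k hk v hv hv'
      have h1 : k⁻¹ * v * k ∈ U := by
        have h0' := hHU k⁻¹ (inv_mem hk) v hv
        rwa [inv_inv] at h0'
      have h2 := hB (k⁻¹ * v * k) h1 (by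
        have h3 : y⁻¹ * (k⁻¹ * v * k) * y = (k * y)⁻¹ * v * (k * y) := by group
        rw [h3]; exact hv')
      have h4 := congrArg (fun t => k * t * k⁻¹) h2
      simpa [mul_assoc] using h4
    choose f hf using fun k : (H : Subgroup G) => key ((k : G) * y) (hBk k k.2)
    obtain ⟨F, hFdef⟩ : ∃ F : (↥(H : Subgroup G)) → (↥U), ∀ k, (F k : G) = f k :=
      ⟨fun k => ⟨f k, (hf k).1⟩, fun k => rfl⟩
    have hni : ¬ Function.Injective F := by
      intro hinj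
      obtain ⟨ι, hι⟩ : ∃ ι : (↥U) → (↥(H : Subgroup G)), ∀ u, (ι u : G) = u :=
        ⟨fun u => ⟨u, hUH u.2⟩, fun u => rfl⟩
      have hcomp : Function.Injective (ι ∘ F) := by
        intro a b hab
        apply hinj
        have h1 := congrArg (fun t : (H : Subgroup G) => (t : G)) hab
        simp only [Function.comp_apply, hι] at h1
        exact Subtype.ext h1
      have hsurj := Finite.injective_iff_surjective.mp hcomp
      obtain ⟨a, ha⟩ := hsurj ⟨h0, hh0H⟩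
      have h1 := congrArg (fun t : (H : Subgroup G) => (t : G)) ha
      simp only [Function.comp_apply, hι] at h1
      exact hh0N (h1 ▸ hUN (F a).2)
    rw [Function.Injective] at hni
    push Not at hni
    obtain ⟨k1, k2, hF, hne⟩ := hni
    have hf12 : f k1 = f k2 := by
      rw [← hFdef k1, ← hFdef k2, hF]
    obtain ⟨s1, hs1, e1⟩ := (hf k1).2
    obtain ⟨s2, hs2, e2⟩ := (hf k2).2
    refine ⟨(k2 : G)⁻¹ * (k1 : G), ?_, mul_mem (inv_mem k2.2) k1.2, ?_⟩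
    · intro h
      apply hne
      apply Subtype.ext
      have h1 := congrArg (fun v => (k2 : G) * v) h
      simpa using h1
    · have h1 : y⁻¹ * ((k2 : G)⁻¹ * (k1 : G)) * y = ((k2 : G) * y)⁻¹ * ((k1 : G) * y) := by
        group
      rw [h1, e1, e2, hf12]
      have h2 : (f k2 * w * s2)⁻¹ * (f k2 * w * s1) = s2⁻¹ * s1 := by group
      rw [h2]
      exact mul_mem (inv_mem hs2) hs1

theorem abs_main (N : Subgroup G) [hNn : N.Normal] (hidx : N.index = 2)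
    (U : Subgroup G) (hUN : U ≤ N) (hU : IsPGroup 2 U)
    (hP2 : ∀ g ∈ N, (∀ u ∈ U, g * u * g⁻¹ ∈ U) → g ∈ U)
    (w : G)
    (hP3 : ∀ x ∈ N, (∀ v ∈ U, x⁻¹ * v * x ∈ U → v = 1) → ∃ u ∈ U, ∃ u' ∈ U, x = u * w * u')
    (H : Sylow 2 G) (x : G) :
    (H : Subgroup G) ⊓ MulAut.conj x • (H : Subgroup G) ≠ ⊥ := by
  have : Fact (Nat.Prime 2) := ⟨Nat.prime_two⟩
  obtain ⟨P, hP⟩ := hU.exists_le_sylow
  obtain ⟨g, hg⟩ := MulAction.exists_smul_eq G P H
  have hH : (H : Subgroup G) = MulAut.conj g • (P : Subgroup G) := by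
    rw [← hg, Sylow.coe_subgroup_smul]
  have hmem : ∀ v : G, v ∈ (H : Subgroup G) ↔ g⁻¹ * v * g ∈ (P : Subgroup G) := by
    intro v
    rw [hH, Subgroup.mem_pointwise_smul_iff_inv_smul_mem]
    have h1 : (MulAut.conj g)⁻¹ • v = g⁻¹ * v * g := by
      rw [← map_inv, MulAut.smul_def, MulAut.conj_apply, inv_inv]
    rw [h1]
  obtain ⟨c, hc1, hc2, hc3⟩ := abs_meet N hidx U hUN hP2 w hP3 P hP (g⁻¹ * x * g)
  intro hbot
  have hin : g * c * g⁻¹ ∈ (H : Subgroup G) ⊓ MulAut.conj x • (H : Subgroup G) := by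
    refine Subgroup.mem_inf.mpr ⟨?_, ?_⟩
    · rw [hmem]
      have h2 : g⁻¹ * (g * c * g⁻¹) * g = c := by group
      rw [h2]; exact hc2
    · rw [Subgroup.mem_pointwise_smul_iff_inv_smul_mem]
      have h1 : (MulAut.conj x)⁻¹ • (g * c * g⁻¹) = x⁻¹ * (g * c * g⁻¹) * x := by
        rw [← map_inv, MulAut.smul_def, MulAut.conj_apply, inv_inv]
      rw [h1, hmem]
      have h2 : g⁻¹ * (x⁻¹ * (g * c * g⁻¹) * x) * g = (g⁻¹ * x * g)⁻¹ * c * (g⁻¹ * x * g) := by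
        group
      rw [h2]; exact hc3
  rw [hbot, Subgroup.mem_bot] at hin
  apply hc1
  have h5 := congrArg (fun v => g⁻¹ * v * g) hin
  simpa [mul_assoc] using h5

end abs

section transport
variable {G : Type*} [Group G] [Finite G] {n : ℕ}

/-- `SL_n(2) ≃* GL_n(2)` -/
noncomputable def slgl : Matrix.SpecialLinearGroup (Fin n) (ZMod 2) ≃* GL (Fin n) (ZMod 2) :=
  MulEquiv.ofBijective Matrix.SpecialLinearGroup.toGL
    ⟨Matrix.SpecialLinearGroup.toGL_injective, by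
      intro g
      have hdet : (g : Matrix (Fin n) (Fin n) (ZMod 2)).det = 1 :=
        zmod2_eq_one (gl_det_ne_zero g)
      exact ⟨⟨g, hdet⟩, Units.ext rfl⟩⟩

theorem main (hn : 4 ≤ n) (N : Subgroup G) [N.Normal]
    (e : N ≃* Matrix.SpecialLinearGroup (Fin n) (ZMod 2)) (hidx : N.index = 2)
    (H : Sylow 2 G) (x : G) :
    (H : Subgroup G) ⊓ MulAut.conj x • (H : Subgroup G) ≠ ⊥ := by
  haveI : NeZero n := ⟨by omega⟩
  obtain ⟨ψ, -⟩ : ∃ ψ : N ≃* GL (Fin n) (ZMod 2), True := ⟨e.trans slgl, trivial⟩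
  obtain ⟨U, memU⟩ : ∃ U : Subgroup G, ∀ g : G, g ∈ U ↔
      ∃ h : g ∈ N, ψ ⟨g, h⟩ ∈ Cfsg.upperTriangularGL n (ZMod 2) := by
    refine ⟨((Cfsg.upperTriangularGL n (ZMod 2)).comap ψ.toMonoidHom).map N.subtype, ?_⟩
    intro g
    constructor
    · rintro ⟨a, ha, rfl⟩
      exact ⟨a.2, ha⟩
    · rintro ⟨h, h'⟩
      exact ⟨⟨g, h⟩, h', rfl⟩
  have hUN : U ≤ N := fun g hg => ((memU g).mp hg).1
  have hU : IsPGroup 2 U := by
    intro g
    obtain ⟨h, h'⟩ := (memU _).mp g.2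
    refine ⟨n, ?_⟩
    apply Subtype.ext
    rw [SubmonoidClass.coe_pow, Subgroup.coe_one]
    have h1 := upper_pow _ h'
    rw [← map_pow] at h1
    have h2 : (⟨(g : G), h⟩ : N) ^ 2 ^ n = 1 := ψ.injective (by rw [h1, map_one])
    exact congrArg (fun t : N => (t : G)) h2
  have hP2 : ∀ g ∈ N, (∀ u ∈ U, g * u * g⁻¹ ∈ U) → g ∈ U := by
    intro g hg hgu
    rw [memU]
    refine ⟨hg, ?_⟩
    apply upper_self_norm
    intro v hv
    obtain ⟨m, rfl⟩ := ψ.surjective v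
    have hmU : (m : G) ∈ U := (memU _).mpr ⟨m.2, hv⟩
    obtain ⟨h', h''⟩ := (memU _).mp (hgu _ hmU)
    have h3 : (⟨g * m * g⁻¹, h'⟩ : N) = ⟨g, hg⟩ * m * ⟨g, hg⟩⁻¹ := Subtype.ext rfl
    rw [h3, map_mul, map_mul, map_inv] at h''
    exact h''
  have hP3 : ∀ x ∈ N, (∀ v ∈ U, x⁻¹ * v * x ∈ U → v = 1) →
      ∃ u ∈ U, ∃ u' ∈ U,
        x = u * ((ψ.symm (permGL (ZMod 2) n Fin.revPerm) : N) : G) * u' := by
    intro x hx hxv
    obtain ⟨u, hu, u', hu', h⟩ := upper_opp (ψ ⟨x, hx⟩) (by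
      intro v hv hv'
      obtain ⟨m, rfl⟩ := ψ.surjective v
      have hmU : (m : G) ∈ U := (memU _).mpr ⟨m.2, hv⟩
      have h1 : x⁻¹ * (m : G) * x ∈ U := by
        rw [memU]
        refine ⟨N.mul_mem (N.mul_mem (N.inv_mem hx) m.2) hx, ?_⟩
        have h3 : (⟨x⁻¹ * m * x, N.mul_mem (N.mul_mem (N.inv_mem hx) m.2) hx⟩ : N) =
            ⟨x, hx⟩⁻¹ * m * ⟨x, hx⟩ := Subtype.ext rfl
        rw [h3, map_mul, map_mul, map_inv]; exact hv'
      have h2 := hxv _ hmU h1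
      have h4 : m = 1 := Subtype.ext h2
      rw [h4, map_one])
    refine ⟨(ψ.symm u : N), (memU _).mpr ⟨(ψ.symm u).2, by simpa using hu⟩,
      (ψ.symm u' : N), (memU _).mpr ⟨(ψ.symm u').2, by simpa using hu'⟩, ?_⟩
    have h3 : (⟨x, hx⟩ : N) =
        ψ.symm u * ψ.symm (permGL (ZMod 2) n Fin.revPerm) * ψ.symm u' := by
      apply ψ.injective
      rw [map_mul, map_mul, ψ.apply_symm_apply, ψ.apply_symm_apply, ψ.apply_symm_apply]
      exact h
    exact congrArg (fun t : N => (t : G)) h3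
  exact abs_main N hidx U hUN hU hP2 _ hP3 H x

end transport

end Cfsg.Agent.H12GL
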