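import Mathlib
import Cfsg.Agent.Helper12.PUa

set_option autoImplicit false

namespace Cfsg.Agent.H12PU

theorem RO : ∀ k l : Fin 3, rhoE 1 0 0 1 k l = if k = l then 1 else 0 := by decide +kernel

theorem RN : ∀ k l : Fin 3, rhoE 6 0 0 6 k l = if k = l then 1 else 0 := by decide +kernel

set_option maxRecDepth 100000 in
theorem RU : ∀ a b c d : ZMod 7, a * d - b * c = 1 → ∀ j k : Fin 3,
    rhoE a b c d 0 j * (rhoE a b c d 0 k) ^ 3 + rhoE a b c d 1 j * (rhoE a b c d 1 k) ^ 3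
      + rhoE a b c d 2 j * (rhoE a b c d 2 k) ^ 3 = if j = k then 1 else 0 := by
  decide +kernel

set_option maxRecDepth 100000 in
theorem RD : ∀ a b c d : ZMod 7, a * d - b * c = 1 →
    rhoE a b c d 0 0 * rhoE a b c d 1 1 * rhoE a b c d 2 2
      - rhoE a b c d 0 0 * rhoE a b c d 1 2 * rhoE a b c d 2 1
      - rhoE a b c d 0 1 * rhoE a b c d 1 0 * rhoE a b c d 2 2
      + rhoE a b c d 0 1 * rhoE a b c d 1 2 * rhoE a b c d 2 0
      + rhoE a b c d 0 2 * rhoE a b c d 1 0 * rhoE a b c d 2 1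
      - rhoE a b c d 0 2 * rhoE a b c d 1 1 * rhoE a b c d 2 0 = 1 := by
  decide +kernel

set_option maxRecDepth 100000 in
theorem RK : ∀ a b c d : ZMod 7, a * d - b * c = 1 →
    (∀ k l : Fin 3, rhoE a b c d k l = if k = l then 1 else 0) →
    (a = 1 ∧ b = 0 ∧ c = 0 ∧ d = 1) ∨ (a = 6 ∧ b = 0 ∧ c = 0 ∧ d = 6) := by
  decide +kernel

set_option maxRecDepth 100000 in
theorem RZ : ∀ a b c d : ZMod 7, a * d - b * c = 1 →
    (∀ k l : Fin 3, rhoE a b c d k 0 * rhoE 1 1 0 1 0 l + rhoE a b c d k 1 * rhoE 1 1 0 1 1 l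
        + rhoE a b c d k 2 * rhoE 1 1 0 1 2 l
      = rhoE 1 1 0 1 k 0 * rhoE a b c d 0 l + rhoE 1 1 0 1 k 1 * rhoE a b c d 1 l
        + rhoE 1 1 0 1 k 2 * rhoE a b c d 2 l) →
    (∀ k l : Fin 3, rhoE a b c d k 0 * rhoE 1 0 1 1 0 l + rhoE a b c d k 1 * rhoE 1 0 1 1 1 l
        + rhoE a b c d k 2 * rhoE 1 0 1 1 2 l
      = rhoE 1 0 1 1 k 0 * rhoE a b c d 0 l + rhoE 1 0 1 1 k 1 * rhoE a b c d 1 l
        + rhoE 1 0 1 1 k 2 * rhoE a b c d 2 l) →
    ∀ k l : Fin 3, rhoE a b c d k l = if k = l then 1 else 0 := by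
  decide +kernel

abbrev M27 : Type := Matrix (Fin 2) (Fin 2) (ZMod 7)
abbrev M39 : Type := Matrix (Fin 3) (Fin 3) F9

/-- the matrix over `F9` attached to a `2 × 2` matrix over `ZMod 7`. -/
def R (M : M27) : M39 := fun i j => rhoE (M 0 0) (M 0 1) (M 1 0) (M 1 1) i j

theorem R_of (a b c d : ZMod 7) (k l : Fin 3) : R !![a, b; c, d] k l = rhoE a b c d k l := rfl

theorem R_one : R 1 = 1 := by
  ext k l
  have h : R 1 k l = rhoE 1 0 0 1 k l := rfl
  rw [h, Matrix.one_apply]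
  exact RO k l

theorem mul3_apply (A B : M39) (k l : Fin 3) :
    (A * B) k l = A k 0 * B 0 l + A k 1 * B 1 l + A k 2 * B 2 l := by
  rw [Matrix.mul_apply, Fin.sum_univ_three]

theorem mulT01 (a b c d t : ZMod 7) :
    !![a, b; c, d] * Matrix.transvection 0 1 t = !![a, a * t + b; c, c * t + d] := by
  ext i j
  fin_cases i <;> fin_cases j <;>
    simp [Matrix.transvection, Matrix.mul_apply, Fin.sum_univ_two, Matrix.single_apply,
      Matrix.one_apply, mul_add]

theorem T01 (t : ZMod 7) : Matrix.transvection 0 1 t = !![1, t; 0, 1] := by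
  ext i j
  fin_cases i <;> fin_cases j <;>
    simp [Matrix.transvection, Matrix.single_apply, Matrix.one_apply]

theorem mulT10 (a b c d t : ZMod 7) :
    !![a, b; c, d] * Matrix.transvection 1 0 t = !![a + b * t, b; c + d * t, d] := by
  ext i j
  fin_cases i <;> fin_cases j <;>
    simp [Matrix.transvection, Matrix.mul_apply, Fin.sum_univ_two, Matrix.single_apply,
      Matrix.one_apply, mul_add]

theorem T10 (t : ZMod 7) : Matrix.transvection 1 0 t = !![1, 0; t, 1] := by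
  ext i j
  fin_cases i <;> fin_cases j <;>
    simp [Matrix.transvection, Matrix.single_apply, Matrix.one_apply]

theorem mulD (a b c d u v : ZMod 7) :
    !![a, b; c, d] * Matrix.diagonal ![u, v] = !![a * u, b * v; c * u, d * v] := by
  ext i j
  fin_cases i <;> fin_cases j <;>
    simp [Matrix.mul_apply, Fin.sum_univ_two, Matrix.diagonal_apply]

theorem Dm (u v : ZMod 7) : Matrix.diagonal ![u, v] = !![u, 0; 0, v] := by
  ext i j
  fin_cases i <;> fin_cases j <;> simp [Matrix.diagonal_apply]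

/-- right multiplication by `N` is compatible with `R`. -/
def Pm (N : M27) : Prop := N.det = 1 ∧ ∀ M : M27, M.det = 1 → R (M * N) = R M * R N

theorem Pm_one : Pm 1 := ⟨Matrix.det_one, fun M _ => by rw [mul_one, R_one, mul_one]⟩

theorem Pm_mul {N N' : M27} (h : Pm N) (h' : Pm N') : Pm (N * N') :=
  ⟨by rw [Matrix.det_mul, h.1, h'.1, mul_one], fun M hM => by
    rw [← mul_assoc, h'.2 (M * N) (by rw [Matrix.det_mul, hM, h.1, mul_one]), h.2 M hM,
      h'.2 N h.1, mul_assoc]⟩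

theorem fin2_cases : ∀ i j : Fin 2, i ≠ j → (i = 0 ∧ j = 1) ∨ (i = 1 ∧ j = 0) := by decide

theorem Pm_tr (i j : Fin 2) (hij : i ≠ j) (t : ZMod 7) : Pm (Matrix.transvection i j t) := by
  refine ⟨Matrix.det_transvection_of_ne i j hij t, ?_⟩
  intro M hM
  obtain ⟨a, b, c, d, rfl⟩ : ∃ a b c d, M = !![a, b; c, d] :=
    ⟨_, _, _, _, Matrix.eta_fin_two M⟩
  rw [Matrix.det_fin_two_of] at hM
  ext k l
  rw [mul3_apply]
  rcases fin2_cases i j hij with ⟨rfl, rfl⟩ | ⟨rfl, rfl⟩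
  · rw [mulT01, T01]
    exact S1 a b c d hM t k l
  · rw [mulT10, T10]
    exact S2 a b c d hM t k l

theorem Pm_diag (u v : ZMod 7) (huv : u * v = 1) : Pm (Matrix.diagonal ![u, v]) := by
  refine ⟨by rw [Matrix.det_diagonal, Fin.prod_univ_two]; simpa using huv, ?_⟩
  intro M hM
  obtain ⟨a, b, c, d, rfl⟩ : ∃ a b c d, M = !![a, b; c, d] :=
    ⟨_, _, _, _, Matrix.eta_fin_two M⟩
  rw [Matrix.det_fin_two_of] at hM
  ext k l
  rw [mul3_apply, mulD, Dm]
  exact S3 a b c d hM u v huv k l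

instance fact7 : Fact (Nat.Prime 7) := ⟨by norm_num⟩

theorem Pm_all (N : M27) (hN : N.det = 1) : Pm N := by
  obtain ⟨L, L', D, h⟩ := Matrix.Pivot.exists_list_transvec_mul_diagonal_mul_list_transvec N
  have hdet : D 0 * D 1 = 1 := by
    have h1 := congrArg Matrix.det h
    rw [hN, Matrix.det_mul, Matrix.det_mul, Matrix.TransvectionStruct.det_toMatrix_prod,
      Matrix.TransvectionStruct.det_toMatrix_prod, Matrix.det_diagonal, Fin.prod_univ_two,
      one_mul, mul_one] at h1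
    exact h1.symm
  have hD : D = ![D 0, D 1] := by
    ext k; fin_cases k <;> rfl
  have hL : ∀ L : List (Matrix.TransvectionStruct (Fin 2) (ZMod 7)),
      Pm (L.map Matrix.TransvectionStruct.toMatrix).prod := by
    intro L
    induction L with
    | nil => simpa using Pm_one
    | cons t L ih =>
      rw [List.map_cons, List.prod_cons]
      exact Pm_mul (Pm_tr t.i t.j t.hij t.c) ih
  rw [h]
  exact Pm_mul (Pm_mul (hL L) (by rw [hD]; exact Pm_diag _ _ hdet)) (hL L')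

theorem R_mul (M N : M27) (hM : M.det = 1) (hN : N.det = 1) : R (M * N) = R M * R N :=
  (Pm_all N hN).2 M hM

abbrev SL27 : Type := Matrix.SpecialLinearGroup (Fin 2) (ZMod 7)

theorem sl_det (g : SL27) : g.1 0 0 * g.1 1 1 - g.1 0 1 * g.1 1 0 = 1 := by
  have h := g.2
  rwa [Matrix.det_fin_two] at h

theorem R_det (g : SL27) : (R g.1).det = 1 := by
  rw [Matrix.det_fin_three]
  exact RD _ _ _ _ (sl_det g)

/-- the homomorphism `SL(2, 7) → SL(3, 9)`. -/
def rho9 : SL27 →* Matrix.SpecialLinearGroup (Fin 3) F9 where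
  toFun g := ⟨R g.1, R_det g⟩
  map_one' := Subtype.ext R_one
  map_mul' g h := Subtype.ext (R_mul g.1 h.1 g.2 h.2)

theorem rho9_val (g : SL27) : (rho9 g).1 = R g.1 := rfl

end Cfsg.Agent.H12PU
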