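import Mathlib
import Cfsg.Agent.Helper12.PUb
import Cfsg.Prelude.Def_Classical

set_option autoImplicit false

namespace Cfsg.Agent.H12PU
open Cfsg

section general

variable {F : Type*} [Field F]

theorem su_of_cols (h3 : (3 : F) = 0) (A : Matrix.SpecialLinearGroup (Fin 3) F)
    (hc : ∀ j k : Fin 3, A.1 0 j * (A.1 0 k) ^ 3 + A.1 1 j * (A.1 1 k) ^ 3
      + A.1 2 j * (A.1 2 k) ^ 3 = if j = k then 1 else 0) : A ∈ Cfsg.SU 3 F 3 := by
  intro u v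
  show Cfsg.hermForm 3 F 3 (A.1.mulVec u) (A.1.mulVec v) = Cfsg.hermForm 3 F 3 u v
  have h00 : A.1 0 0 * (A.1 0 0) ^ 3 + A.1 1 0 * (A.1 1 0) ^ 3 + A.1 2 0 * (A.1 2 0) ^ 3 = 1 := by
    simpa using hc 0 0
  have h01 : A.1 0 0 * (A.1 0 1) ^ 3 + A.1 1 0 * (A.1 1 1) ^ 3 + A.1 2 0 * (A.1 2 1) ^ 3 = 0 := by
    simpa using hc 0 1
  have h02 : A.1 0 0 * (A.1 0 2) ^ 3 + A.1 1 0 * (A.1 1 2) ^ 3 + A.1 2 0 * (A.1 2 2) ^ 3 = 0 := by
    simpa using hc 0 2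
  have h10 : A.1 0 1 * (A.1 0 0) ^ 3 + A.1 1 1 * (A.1 1 0) ^ 3 + A.1 2 1 * (A.1 2 0) ^ 3 = 0 := by
    simpa using hc 1 0
  have h11 : A.1 0 1 * (A.1 0 1) ^ 3 + A.1 1 1 * (A.1 1 1) ^ 3 + A.1 2 1 * (A.1 2 1) ^ 3 = 1 := by
    simpa using hc 1 1
  have h12 : A.1 0 1 * (A.1 0 2) ^ 3 + A.1 1 1 * (A.1 1 2) ^ 3 + A.1 2 1 * (A.1 2 2) ^ 3 = 0 := by
    simpa using hc 1 2
  have h20 : A.1 0 2 * (A.1 0 0) ^ 3 + A.1 1 2 * (A.1 1 0) ^ 3 + A.1 2 2 * (A.1 2 0) ^ 3 = 0 := by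
    simpa using hc 2 0
  have h21 : A.1 0 2 * (A.1 0 1) ^ 3 + A.1 1 2 * (A.1 1 1) ^ 3 + A.1 2 2 * (A.1 2 1) ^ 3 = 0 := by
    simpa using hc 2 1
  have h22 : A.1 0 2 * (A.1 0 2) ^ 3 + A.1 1 2 * (A.1 1 2) ^ 3 + A.1 2 2 * (A.1 2 2) ^ 3 = 1 := by
    simpa using hc 2 2
  simp only [Cfsg.hermForm, Fin.sum_univ_three, Matrix.mulVec, dotProduct]
  linear_combination (u 0 * (v 0) ^ 3) * h00 + (u 0 * (v 1) ^ 3) * h01 + (u 0 * (v 2) ^ 3) * h02
    + (u 1 * (v 0) ^ 3) * h10 + (u 1 * (v 1) ^ 3) * h11 + (u 1 * (v 2) ^ 3) * h12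
    + (u 2 * (v 0) ^ 3) * h20 + (u 2 * (v 1) ^ 3) * h21 + (u 2 * (v 2) ^ 3) * h22
    + ((A.1 0 0 * u 0 + A.1 0 1 * u 1 + A.1 0 2 * u 2)
        * ((A.1 0 0 * v 0 + A.1 0 1 * v 1) * (A.1 0 1 * v 1 + A.1 0 2 * v 2)
          * (A.1 0 2 * v 2 + A.1 0 0 * v 0))
      + (A.1 1 0 * u 0 + A.1 1 1 * u 1 + A.1 1 2 * u 2)
        * ((A.1 1 0 * v 0 + A.1 1 1 * v 1) * (A.1 1 1 * v 1 + A.1 1 2 * v 2)
          * (A.1 1 2 * v 2 + A.1 1 0 * v 0))
      + (A.1 2 0 * u 0 + A.1 2 1 * u 1 + A.1 2 2 * u 2)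
        * ((A.1 2 0 * v 0 + A.1 2 1 * v 1) * (A.1 2 1 * v 1 + A.1 2 2 * v 2)
          * (A.1 2 2 * v 2 + A.1 2 0 * v 0))) * h3

variable (e : F9 →+* F)

/-- `SL(2, 7) → SL(3, F)`. -/
def psi7 : SL27 →* Matrix.SpecialLinearGroup (Fin 3) F :=
  (Matrix.SpecialLinearGroup.map e).comp rho9

theorem psi7_entry (g : SL27) (i j : Fin 3) : (psi7 e g).1 i j = e (R g.1 i j) := by
  simp [psi7, Matrix.SpecialLinearGroup.map_apply_coe, rho9_val]

include e in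
theorem three_F : (3 : F) = 0 := by
  have h := congrArg e F9.three_eq
  rw [map_ofNat, map_zero] at h
  exact h

theorem psi7_mem (g : SL27) : psi7 e g ∈ Cfsg.SU 3 F 3 := by
  apply su_of_cols (three_F e)
  intro j k
  rw [psi7_entry, psi7_entry, psi7_entry, psi7_entry, psi7_entry, psi7_entry]
  have h := congrArg e (RU _ _ _ _ (sl_det g) j k)
  simp only [map_add, map_mul, map_pow] at h
  rw [show R g.1 0 j = rhoE (g.1 0 0) (g.1 0 1) (g.1 1 0) (g.1 1 1) 0 j from rfl,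
    show R g.1 0 k = rhoE (g.1 0 0) (g.1 0 1) (g.1 1 0) (g.1 1 1) 0 k from rfl,
    show R g.1 1 j = rhoE (g.1 0 0) (g.1 0 1) (g.1 1 0) (g.1 1 1) 1 j from rfl,
    show R g.1 1 k = rhoE (g.1 0 0) (g.1 0 1) (g.1 1 0) (g.1 1 1) 1 k from rfl,
    show R g.1 2 j = rhoE (g.1 0 0) (g.1 0 1) (g.1 1 0) (g.1 1 1) 2 j from rfl,
    show R g.1 2 k = rhoE (g.1 0 0) (g.1 0 1) (g.1 1 0) (g.1 1 1) 2 k from rfl, h]
  split_ifs <;> simp

theorem psi7_inj_val {g h : SL27} (hgh : psi7 e g = psi7 e h) : R g.1 = R h.1 := by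
  ext i j
  have h1 := congrArg (fun X : Matrix.SpecialLinearGroup (Fin 3) F => X.1 i j) hgh
  simp only [psi7_entry] at h1
  exact e.injective h1

/-- `SL(2, 7) → SU(3, 3)`. -/
def psiU : SL27 →* ↥(Cfsg.SU 3 F 3) := (psi7 e).codRestrict _ (psi7_mem e)

def s1 : SL27 := ⟨!![1, 1; 0, 1], by rw [Matrix.det_fin_two_of]; ring⟩
def s2 : SL27 := ⟨!![1, 0; 1, 1], by rw [Matrix.det_fin_two_of]; ring⟩

theorem sq_one7 : ∀ r : ZMod 7, r ^ 2 = 1 → r = 1 ∨ r = 6 := by decide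

theorem R_eq_one_of (g : SL27)
    (h : (g.1 0 0 = 1 ∧ g.1 0 1 = 0 ∧ g.1 1 0 = 0 ∧ g.1 1 1 = 1) ∨
      (g.1 0 0 = 6 ∧ g.1 0 1 = 0 ∧ g.1 1 0 = 0 ∧ g.1 1 1 = 6)) : R g.1 = 1 := by
  ext k l
  rw [Matrix.one_apply]
  rcases h with ⟨h00, h01, h10, h11⟩ | ⟨h00, h01, h10, h11⟩
  · have h' : R g.1 k l = rhoE (g.1 0 0) (g.1 0 1) (g.1 1 0) (g.1 1 1) k l := rfl
    rw [h', h00, h01, h10, h11]
    exact RO k l
  · have h' : R g.1 k l = rhoE (g.1 0 0) (g.1 0 1) (g.1 1 0) (g.1 1 1) k l := rfl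
    rw [h', h00, h01, h10, h11]
    exact RN k l

theorem ker_eq : ((QuotientGroup.mk' (Subgroup.center ↥(Cfsg.SU 3 F 3))).comp (psiU e)).ker
    = Subgroup.center SL27 := by
  ext g
  rw [MonoidHom.mem_ker, MonoidHom.comp_apply, QuotientGroup.mk'_apply, QuotientGroup.eq_one_iff,
    Matrix.SpecialLinearGroup.mem_center_iff]
  constructor
  · intro hc
    rw [Subgroup.mem_center_iff] at hc
    have hcomm : ∀ s : SL27, R g.1 * R s.1 = R s.1 * R g.1 := by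
      intro s
      have h1 := hc (psiU e s)
      rw [← map_mul, ← map_mul] at h1
      have h2 : psi7 e (s * g) = psi7 e (g * s) := congrArg Subtype.val h1
      have h3 := psi7_inj_val e h2
      rw [Matrix.SpecialLinearGroup.coe_mul, Matrix.SpecialLinearGroup.coe_mul,
        R_mul _ _ s.2 g.2, R_mul _ _ g.2 s.2] at h3
      exact h3.symm
    have hz := RZ _ _ _ _ (sl_det g)
      (fun k l => by
        have h := congrFun (congrFun (hcomm s1) k) l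
        rw [mul3_apply, mul3_apply] at h
        exact h)
      (fun k l => by
        have h := congrFun (congrFun (hcomm s2) k) l
        rw [mul3_apply, mul3_apply] at h
        exact h)
    rcases RK _ _ _ _ (sl_det g) hz with ⟨h00, h01, h10, h11⟩ | ⟨h00, h01, h10, h11⟩
    · refine ⟨1, one_pow _, ?_⟩
      ext i j
      fin_cases i <;> fin_cases j <;> simp [h00, h01, h10, h11]
    · refine ⟨6, by decide, ?_⟩
      ext i j
      fin_cases i <;> fin_cases j <;> simp [h00, h01, h10, h11]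
  · rintro ⟨r, hr, hrg⟩
    rw [Fintype.card_fin] at hr
    have hent : (g.1 0 0 = 1 ∧ g.1 0 1 = 0 ∧ g.1 1 0 = 0 ∧ g.1 1 1 = 1) ∨
        (g.1 0 0 = 6 ∧ g.1 0 1 = 0 ∧ g.1 1 0 = 0 ∧ g.1 1 1 = 6) := by
      rcases sq_one7 r hr with rfl | rfl
      · left
        rw [← hrg]
        simp
      · right
        rw [← hrg]
        simp
    have h1 : psiU e g = 1 := by
      apply Subtype.ext
      apply Subtype.ext
      ext i j
      rw [show ((psiU e g : ↥(Cfsg.SU 3 F 3)) : Matrix.SpecialLinearGroup (Fin 3) F) = psi7 e g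
        from rfl, psi7_entry, R_eq_one_of g hent]
      simp [Matrix.one_apply]
    rw [h1]
    exact one_mem _

include e in
theorem main7 : ∃ H : Subgroup (Cfsg.PSU 3 F 3),
    Nonempty (H ≃* Matrix.ProjectiveSpecialLinearGroup (Fin 2) (ZMod 7)) :=
  ⟨((QuotientGroup.mk' (Subgroup.center ↥(Cfsg.SU 3 F 3))).comp (psiU e)).range,
    ⟨(QuotientGroup.quotientKerEquivRange _).symm.trans
      (QuotientGroup.quotientMulEquivOfEq (ker_eq e))⟩⟩

end general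

/-- `SL(2, R) ≃* SL(2, S)` from a ring isomorphism. -/
def slEquiv2 {R S : Type*} [CommRing R] [CommRing S] (e : R ≃+* S) :
    Matrix.SpecialLinearGroup (Fin 2) R ≃* Matrix.SpecialLinearGroup (Fin 2) S :=
  MonoidHom.toMulEquiv (Matrix.SpecialLinearGroup.map e.toRingHom)
    (Matrix.SpecialLinearGroup.map e.symm.toRingHom)
    (by ext g i j; simp) (by ext g i j; simp)

theorem map_center_equiv2 {G H : Type*} [Group G] [Group H] (e : G ≃* H) :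
    (Subgroup.center G).map (e : G →* H) = Subgroup.center H := by
  ext y
  constructor
  · rintro ⟨x, hx, rfl⟩
    have hx' : x ∈ Subgroup.center G := hx
    rw [Subgroup.mem_center_iff] at hx' ⊢
    intro z
    obtain ⟨z', rfl⟩ := e.surjective z
    show e z' * e x = e x * e z'
    rw [← map_mul, ← map_mul, hx' z']
  · intro hy
    refine ⟨e.symm y, ?_, by simp⟩
    show e.symm y ∈ Subgroup.center G
    rw [Subgroup.mem_center_iff] at hy ⊢
    intro z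
    apply e.injective
    rw [map_mul, map_mul, e.apply_symm_apply]
    exact hy (e z)

theorem main {F : Type*} [Field F] [Fintype F] (hF : Fintype.card F = 9)
    {K : Type*} [Field K] [Fintype K] (hK : Fintype.card K = 7) :
    ∃ H : Subgroup (Cfsg.PSU 3 F 3),
      Nonempty (H ≃* Matrix.ProjectiveSpecialLinearGroup (Fin 2) K) := by
  let e9 : F9 ≃+* F := FiniteField.ringEquivOfCardEq (F9.card_eq.trans hF.symm)
  let e7 : K ≃+* ZMod 7 := FiniteField.ringEquivOfCardEq (hK.trans (ZMod.card 7).symm)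
  obtain ⟨H, ⟨eH⟩⟩ := main7 (F := F) e9.toRingHom
  let eq : Matrix.ProjectiveSpecialLinearGroup (Fin 2) K ≃*
      Matrix.ProjectiveSpecialLinearGroup (Fin 2) (ZMod 7) :=
    QuotientGroup.congr _ _ (slEquiv2 e7) (map_center_equiv2 _)
  exact ⟨H, ⟨eH.trans eq.symm⟩⟩

end Cfsg.Agent.H12PU
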