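import Mathlib
import Cfsg.Prelude.Def_Sporadic_a
import Cfsg.Agent.Helper3.Steiner

/-!
Counting in an abstract Steiner system S(3,6,22): blocks meet in 0 or 2 points, each block is
disjoint from 16 others, a point off a block lies in 6 blocks disjoint from it, and the numbers of
blocks disjoint from two given blocks (helper12).
-/

set_option autoImplicit false
set_option linter.unusedSectionVars false

namespace Cfsg.Agent.Helper12.S3622

open Finset Cfsg.Agent.Helper3

variable {α : Type*} [Fintype α] [DecidableEq α]

theorem card_blocks (hα : Fintype.card α = 22) {B : Finset (Finset α)}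
    (hB : Cfsg.IsSteinerSystem 3 6 (B : Set (Finset α))) : B.card = 77 := by
  have h := blocks_through hB ∅ (by simp)
  simp only [card_empty, Nat.sub_zero, hα, empty_subset, filter_true] at h
  norm_num [Nat.choose] at h
  omega

theorem counts (hα : Fintype.card α = 22) {B : Finset (Finset α)}
    (hB : Cfsg.IsSteinerSystem 3 6 (B : Set (Finset α))) {b : Finset α} (hb : b ∈ B) :
    (B.filter (fun c => (b ∩ c).card = 0)).card = 16 ∧
      (B.filter (fun c => (b ∩ c).card = 1)).card = 0 := by
  have hk := hB.1 b hb
  have hle : ∀ c ∈ B, (b ∩ c).card ≤ 6 := fun c _ => by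
    rw [← hk]; exact card_le_card inter_subset_left
  have lam : ∀ (j : ℕ), j ≤ 3 → ∀ (s : Finset α), s.card = j →
      (B.filter (fun c => s ⊆ c)).card * Nat.choose (6 - j) (3 - j) =
        Nat.choose (22 - j) (3 - j) := by
    intro j hj s hs
    have h := blocks_through hB s (by omega)
    rwa [hs, hα] at h
  have e0 := sum_choose_inter (B := B) b 0 77 (fun s hs => by
    have h := lam 0 (by omega) s hs; norm_num [Nat.choose] at h; omega)
  have e1 := sum_choose_inter (B := B) b 1 21 (fun s hs => by
    have h := lam 1 (by omega) s hs; norm_num [Nat.choose] at h; omega)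
  have e2 := sum_choose_inter (B := B) b 2 5 (fun s hs => by
    have h := lam 2 (by omega) s hs; norm_num [Nat.choose] at h; omega)
  rw [sum_fiber_inter B b (fun i => Nat.choose i 0) 6 hle, hk] at e0
  rw [sum_fiber_inter B b (fun i => Nat.choose i 1) 6 hle, hk] at e1
  rw [sum_fiber_inter B b (fun i => Nat.choose i 2) 6 hle, hk] at e2
  simp only [Finset.sum_range_succ, Finset.sum_range_zero] at e0 e1 e2
  have n3 : (B.filter (fun c => (b ∩ c).card = 3)).card = 0 := by
    rw [card_filter_inter_self hB hb 3 (le_refl 3), if_neg (by decide)]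
  have n4 : (B.filter (fun c => (b ∩ c).card = 4)).card = 0 := by
    rw [card_filter_inter_self hB hb 4 (by omega), if_neg (by decide)]
  have n5 : (B.filter (fun c => (b ∩ c).card = 5)).card = 0 := by
    rw [card_filter_inter_self hB hb 5 (by omega), if_neg (by decide)]
  have n6 : (B.filter (fun c => (b ∩ c).card = 6)).card = 1 := by
    rw [card_filter_inter_self hB hb 6 (by omega), if_pos rfl]
  generalize hm0 : (B.filter (fun c => (b ∩ c).card = 0)).card = m0 at e0 e1 e2 ⊢
  generalize hm1 : (B.filter (fun c => (b ∩ c).card = 1)).card = m1 at e0 e1 e2 ⊢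
  generalize hm2 : (B.filter (fun c => (b ∩ c).card = 2)).card = m2 at e0 e1 e2 ⊢
  generalize hm3 : (B.filter (fun c => (b ∩ c).card = 3)).card = m3 at e0 e1 e2 n3 n4 n5 n6 ⊢
  generalize hm4 : (B.filter (fun c => (b ∩ c).card = 4)).card = m4 at e0 e1 e2 n3 n4 n5 n6 ⊢
  generalize hm5 : (B.filter (fun c => (b ∩ c).card = 5)).card = m5 at e0 e1 e2 n3 n4 n5 n6 ⊢
  generalize hm6 : (B.filter (fun c => (b ∩ c).card = 6)).card = m6 at e0 e1 e2 n3 n4 n5 n6 ⊢
  norm_num [Nat.choose] at e0 e1 e2
  omega

/-- two distinct blocks meet in 0 or 2 points -/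
theorem inter_card (hα : Fintype.card α = 22) {B : Finset (Finset α)}
    (hB : Cfsg.IsSteinerSystem 3 6 (B : Set (Finset α))) {b c : Finset α} (hb : b ∈ B) (hc : c ∈ B)
    (hbc : b ≠ c) : (b ∩ c).card = 0 ∨ (b ∩ c).card = 2 := by
  have h3 : ¬ 3 ≤ (b ∩ c).card := fun h => hbc (block_eq_of_inter hB hb hc h)
  have h1 : (b ∩ c).card ≠ 1 := by
    intro h
    have := (counts hα hB hb).2
    rw [card_eq_zero, filter_eq_empty_iff] at this
    exact this hc h
  omega

theorem disjoint_iff_card {b c : Finset α} : Disjoint c b ↔ (b ∩ c).card = 0 := by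
  rw [card_eq_zero, disjoint_comm, disjoint_iff_inter_eq_empty]

/-- the number of blocks disjoint from a block -/
theorem card_disjoint (hα : Fintype.card α = 22) {B : Finset (Finset α)}
    (hB : Cfsg.IsSteinerSystem 3 6 (B : Set (Finset α))) {b : Finset α} (hb : b ∈ B) :
    (B.filter (fun d => Disjoint d b)).card = 16 := by
  rw [← (counts hα hB hb).1]
  congr 1
  ext d
  simp only [mem_filter, disjoint_iff_card]

/-- a point off a block lies in exactly 6 blocks disjoint from it -/
theorem card_through_disjoint (hα : Fintype.card α = 22) {B : Finset (Finset α)}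
    (hB : Cfsg.IsSteinerSystem 3 6 (B : Set (Finset α))) {b : Finset α} (hb : b ∈ B) {p : α}
    (hp : p ∉ b) : ((B.filter (fun d => Disjoint d b)).filter (fun d => p ∈ d)).card = 6 := by
  have hk := hB.1 b hb
  have h21 : (B.filter (fun d => p ∈ d)).card = 21 := by
    have h := blocks_through hB {p} (by simp)
    simp only [card_singleton, hα, singleton_subset_iff] at h
    norm_num [Nat.choose] at h
    omega
  have h15 : ((B.filter (fun d => p ∈ d)).filter (fun d => ¬ Disjoint d b)).card = 15 := by
    have hc : (powersetCard 2 b).card = 15 := by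
      rw [card_powersetCard, hk]; rfl
    rw [← hc]
    refine card_bij (fun d _ => b ∩ d) ?_ ?_ ?_
    · intro d hd
      simp only [mem_filter] at hd
      rw [mem_powersetCard]
      refine ⟨inter_subset_left, ?_⟩
      have hne : b ≠ d := fun h => hp (h ▸ hd.1.2)
      rcases inter_card hα hB hb hd.1.1 hne with h0 | h2
      · exact absurd (disjoint_iff_card.mpr h0) hd.2
      · exact h2
    · intro d hd d' hd' hEq
      simp only [mem_filter] at hd hd'
      have hne : b ≠ d := fun h => hp (h ▸ hd.1.2)
      have h2 : (b ∩ d).card = 2 := by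
        rcases inter_card hα hB hb hd.1.1 hne with h0 | h2
        · exact absurd (disjoint_iff_card.mpr h0) hd.2
        · exact h2
      have hp' : p ∉ b ∩ d := fun h => hp (mem_inter.mp h).1
      have hsub : insert p (b ∩ d) ⊆ d ∩ d' := by
        intro x hx
        rw [mem_insert] at hx
        rcases hx with rfl | hx
        · exact mem_inter.mpr ⟨hd.1.2, hd'.1.2⟩
        · exact mem_inter.mpr ⟨(mem_inter.mp hx).2, (mem_inter.mp (hEq ▸ hx)).2⟩
      have hcard : 3 ≤ (d ∩ d').card := by
        have := card_le_card hsub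
        rw [card_insert_of_notMem hp', h2] at this
        exact this
      exact block_eq_of_inter hB hd.1.1 hd'.1.1 hcard
    · intro u hu
      rw [mem_powersetCard] at hu
      have hpu : p ∉ u := fun h => hp (hu.1 h)
      have h3 : (insert p u).card = 3 := by rw [card_insert_of_notMem hpu, hu.2]
      obtain ⟨d, ⟨hdB, hsub⟩, -⟩ := hB.2 (insert p u) h3
      have hdB' : d ∈ B := by exact_mod_cast hdB
      have hpd : p ∈ d := hsub (mem_insert_self _ _)
      have hud : u ⊆ b ∩ d := fun x hx => mem_inter.mpr ⟨hu.1 hx, hsub (mem_insert_of_mem hx)⟩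
      have hne : b ≠ d := fun h => hp (h ▸ hpd)
      have h2 : (b ∩ d).card = 2 := by
        rcases inter_card hα hB hb hdB' hne with h0 | h2
        · have := card_le_card hud
          rw [hu.2, h0] at this
          omega
        · exact h2
      refine ⟨d, ?_, ?_⟩
      · simp only [mem_filter]
        refine ⟨⟨hdB', hpd⟩, ?_⟩
        rw [disjoint_iff_card, h2]
        norm_num
      · exact (eq_of_subset_of_card_le hud (by rw [h2, hu.2])).symm
  have hsplit := card_filter_add_card_filter_not (s := B.filter (fun d => p ∈ d))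
    (fun d => Disjoint d b)
  rw [h21, h15] at hsplit
  have hcomm : (B.filter (fun d => Disjoint d b)).filter (fun d => p ∈ d) =
      (B.filter (fun d => p ∈ d)).filter (fun d => Disjoint d b) := by
    rw [filter_filter, filter_filter]
    congr 1
    ext d
    tauto
  rw [hcomm]
  omega

/-- double counting: blocks disjoint from `b` against a set `F` off `b` -/
theorem sum_inter_off (hα : Fintype.card α = 22) {B : Finset (Finset α)}
    (hB : Cfsg.IsSteinerSystem 3 6 (B : Set (Finset α))) {b : Finset α} (hb : b ∈ B)
    (F : Finset α) (hF : Disjoint F b) :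
    ∑ d ∈ B.filter (fun d => Disjoint d b), (d ∩ F).card = 6 * F.card := by
  have h1 : ∀ d : Finset α, (d ∩ F).card = ∑ p ∈ F, if p ∈ d then 1 else 0 := by
    intro d
    rw [inter_comm, ← filter_mem_eq_inter, card_filter]
  rw [sum_congr rfl (fun d _ => h1 d), sum_comm]
  have h2 : ∀ p ∈ F, (∑ d ∈ B.filter (fun d => Disjoint d b), if p ∈ d then 1 else 0) = 6 := by
    intro p hp
    rw [← card_filter]
    exact card_through_disjoint hα hB hb (fun h => (disjoint_left.mp hF) hp h)
  rw [sum_congr rfl h2, sum_const, smul_eq_mul, mul_comm]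


theorem block_ne_empty {B : Finset (Finset α)}
    (hB : Cfsg.IsSteinerSystem 3 6 (B : Set (Finset α))) {b : Finset α} (hb : b ∈ B) :
    ¬ Disjoint b b := by
  intro h
  rw [disjoint_self] at h
  have := hB.1 b hb
  rw [h] at this
  simp at this

/-- `μ = 4`: two blocks meeting in two points have exactly four common disjoint blocks -/
theorem card_common_of_meet (hα : Fintype.card α = 22) {B : Finset (Finset α)}
    (hB : Cfsg.IsSteinerSystem 3 6 (B : Set (Finset α))) {b c : Finset α} (hb : b ∈ B) (hc : c ∈ B)
    (hbc : (b ∩ c).card = 2) :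
    (B.filter (fun d => Disjoint d b ∧ Disjoint d c)).card = 4 := by
  have hkc := hB.1 c hc
  have hF : Disjoint (c \ b) b := sdiff_disjoint
  have hFc : (c \ b).card = 4 := by
    have := card_sdiff_add_card_inter c b
    rw [inter_comm, hbc, hkc] at this
    omega
  have hsum := sum_inter_off hα hB hb (c \ b) hF
  rw [hFc] at hsum
  have hterm : ∀ d ∈ B.filter (fun d => Disjoint d b),
      (d ∩ (c \ b)).card = if Disjoint d c then 0 else 2 := by
    intro d hd
    rw [mem_filter] at hd
    have e : d ∩ (c \ b) = d ∩ c := by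
      ext x
      simp only [mem_inter, mem_sdiff]
      constructor
      · rintro ⟨h1, h2, -⟩; exact ⟨h1, h2⟩
      · rintro ⟨h1, h2⟩; exact ⟨h1, h2, fun h => (disjoint_left.mp hd.2) h1 h⟩
    rw [e]
    have hne : c ≠ d := by
      rintro rfl
      have := disjoint_iff_card.mp hd.2
      omega
    have h02 := inter_card hα hB hc hd.1 hne
    rw [inter_comm] at h02
    split_ifs with hdis
    · have := disjoint_iff_card.mp hdis
      rw [inter_comm] at this
      exact this
    · rcases h02 with h0 | h2
      · exfalso; apply hdis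
        rw [disjoint_iff_card, inter_comm]; exact h0
      · exact h2
  rw [sum_congr rfl hterm, sum_ite, sum_const_zero, zero_add, sum_const, smul_eq_mul] at hsum
  have h16 := card_disjoint hα hB hb
  have hsplit := card_filter_add_card_filter_not (s := B.filter (fun d => Disjoint d b))
    (fun d => Disjoint d c)
  rw [filter_filter] at hsplit
  omega

/-- `λ = 0`: two disjoint blocks have no common disjoint block -/
theorem card_common_of_disjoint (hα : Fintype.card α = 22) {B : Finset (Finset α)}
    (hB : Cfsg.IsSteinerSystem 3 6 (B : Set (Finset α))) {b c : Finset α} (hb : b ∈ B) (hc : c ∈ B)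
    (hbc : Disjoint b c) :
    (B.filter (fun d => Disjoint d b ∧ Disjoint d c)).card = 0 := by
  rw [card_eq_zero, filter_eq_empty_iff]
  rintro d₀ hd₀ ⟨hd₀b, hd₀c⟩
  have hkc := hB.1 c hc
  have hsum := sum_inter_off hα hB hb c hbc.symm
  rw [hkc] at hsum
  have h16 := card_disjoint hα hB hb
  have hcN : c ∈ B.filter (fun d => Disjoint d b) := mem_filter.mpr ⟨hc, hbc.symm⟩
  have hne : d₀ ≠ c := by
    rintro rfl
    exact block_ne_empty hB hc hd₀c
  have hd₀N : d₀ ∈ (B.filter (fun d => Disjoint d b)).erase c :=
    mem_erase.mpr ⟨hne, mem_filter.mpr ⟨hd₀, hd₀b⟩⟩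
  have h1 := add_sum_erase (B.filter (fun d => Disjoint d b)) (fun d => (d ∩ c).card) hcN
  have h2 := add_sum_erase ((B.filter (fun d => Disjoint d b)).erase c) (fun d => (d ∩ c).card) hd₀N
  have h3 : ∑ d ∈ ((B.filter (fun d => Disjoint d b)).erase c).erase d₀, (d ∩ c).card ≤
      (((B.filter (fun d => Disjoint d b)).erase c).erase d₀).card • 2 := by
    apply sum_le_card_nsmul
    intro d hd
    rw [mem_erase, mem_erase, mem_filter] at hd
    have := inter_card hα hB hc hd.2.2.1 (Ne.symm hd.2.1)
    rw [inter_comm] at this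
    omega
  rw [card_erase_of_mem hd₀N, card_erase_of_mem hcN, h16, smul_eq_mul] at h3
  have h4 : (d₀ ∩ c).card = 0 := by
    have := disjoint_iff_card.mp hd₀c
    rw [inter_comm] at this
    exact this
  have h5 : (c ∩ c).card = 6 := by rw [inter_self, hkc]
  omega

end Cfsg.Agent.Helper12.S3622
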